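import Mathlib
import Cfsg.Agent.Lib.FGS.Ito
import Cfsg.Agent.Lib.Core.Fitting

/-! The class-size prime graph: two vertices at distance at least three force solvability. -/

set_option autoImplicit false
set_option linter.unusedSectionVars false
set_option linter.style.haveILetI false

namespace H93CS

open Subgroup Cfsg H3 H80
open scoped Pointwise commutatorElement

variable {G : Type*} [Group G]

theorem normal_sup_of_commutator {L : Subgroup G} [L.Normal] (h : ∀ a b : G, ⁅a, b⁆ ∈ L)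
    (A : Subgroup G) : (L ⊔ A).Normal := by
  refine ⟨fun x hx g => ?_⟩
  have : g * x * g⁻¹ = ⁅g, x⁆ * x := by rw [commutatorElement_def]; group
  rw [this]
  exact mul_mem (mem_sup_left (h g x)) hx

/-- Frattini: `G = N(P) L` when `L P` is normal. -/
theorem exists_normalizer_mul [Finite G] {p : ℕ} [Fact p.Prime] {L : Subgroup G} [L.Normal]
    (P : Sylow p G) (hn : (L ⊔ (P : Subgroup G)).Normal) (g : G) :
    ∃ n ∈ normalizer ((P : Subgroup G) : Set G), ∃ e ∈ L, g = n * e := by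
  have h1 := Sylow.normalizer_sup_eq_top' (N := L ⊔ (P : Subgroup G)) P le_sup_right
  have h2 : normalizer ((P : Subgroup G) : Set G) ⊔ L = ⊤ := by
    rw [eq_top_iff, ← h1]
    exact sup_le le_sup_left (sup_le le_sup_right (le_normalizer.trans le_sup_left))
  have h3 : g ∈ normalizer ((P : Subgroup G) : Set G) ⊔ L := h2 ▸ mem_top g
  obtain ⟨n, hn, e, he, rfl⟩ := mem_sup_of_normal_right.1 h3
  exact ⟨n, hn, e, he, rfl⟩

theorem exists_conj_mem_centralizer [Finite G] {p : ℕ} [Fact p.Prime] {L : Subgroup G} [L.Normal]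
    (P : Sylow p G) (hn : (L ⊔ (P : Subgroup G)).Normal)
    (hN : normalizer ((P : Subgroup G) : Set G) ≤ centralizer ((P : Subgroup G) : Set G))
    {y : G} (hy : ¬ p ∣ cs⟦y⟧) :
    ∃ e ∈ L, e * y * e⁻¹ ∈ centralizer ((P : Subgroup G) : Set G) := by
  obtain ⟨g, hg⟩ := exists_conj_mem_centralizer_sylow hy P
  obtain ⟨n, hn', e, he, rfl⟩ := exists_normalizer_mul P hn g
  refine ⟨e, he, ?_⟩
  have h1 : e * y * e⁻¹ = n⁻¹ * (n * e * y * (n * e)⁻¹) * n := by group
  rw [h1]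
  exact mul_mem (mul_mem (inv_mem (hN hn')) hg) (hN hn')

theorem not_le_centralizer [Finite G] {p : ℕ} [Fact p.Prime] {L : Subgroup G} [L.Normal]
    (P : Sylow p G) (hn : (L ⊔ (P : Subgroup G)).Normal)
    (hN : normalizer ((P : Subgroup G) : Set G) ≤ centralizer ((P : Subgroup G) : Set G))
    (hp : ∃ x : G, p ∣ cs⟦x⟧) : ¬ L ≤ centralizer ((P : Subgroup G) : Set G) := by
  intro h
  obtain ⟨x, hx⟩ := hp
  obtain ⟨n, hn', e, he, rfl⟩ := exists_normalizer_mul P hn x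
  exact not_dvd_cs_iff.2 ⟨P, le_Cx_iff.2 (mul_mem (hN hn') (h he))⟩ hx

theorem exists_mem_dvd_cs [Finite G] {p : ℕ} [Fact p.Prime] {L : Subgroup G} [L.Normal]
    (P : Sylow p G) (hn : (L ⊔ (P : Subgroup G)).Normal)
    (hN : normalizer ((P : Subgroup G) : Set G) ≤ centralizer ((P : Subgroup G) : Set G))
    (hp : ∃ x : G, p ∣ cs⟦x⟧) : ∃ y ∈ L, p ∣ cs⟦y⟧ := by
  by_contra hc
  push Not at hc
  exact not_le_centralizer P hn hN hp (le_of_forall_exists_conj_mem fun y hy =>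
    exists_conj_mem_centralizer P hn hN (hc y hy))

/-- The normal `π`-complement containing the derived subgroup. -/
theorem exists_piComplement [Finite G] {π : Set ℕ}
    (hN : ∀ (q : ℕ) [Fact q.Prime], q ∈ π → ∀ Q : Sylow q G,
      normalizer ((Q : Subgroup G) : Set G) ≤ centralizer ((Q : Subgroup G) : Set G)) :
    ∃ L : Subgroup G, L.Normal ∧ PiNum πᶜ (Nat.card L) ∧ PiNum π L.index ∧
      ∀ a b : G, ⁅a, b⁆ ∈ L := by
  have hnc : ∀ (q : ℕ) [Fact q.Prime], q ∈ π → HasNormalPComplement q G := fun q _ hq =>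
    H4.hasNormalPComplement_of_normalizer_le_centralizer default (hN q hq default)
  let L : Subgroup G :=
    { carrier := {g | PiNum πᶜ (orderOf g)}
      one_mem' := by simp [piNum_one]
      inv_mem' := fun {g} hg => by simpa using hg
      mul_mem' := fun {a b} ha hb => by
        refine piNum_compl_iff.2 fun q hq hqπ => ?_
        haveI := Fact.mk hq
        refine (hq.coprime_iff_not_dvd).1 (Nat.Coprime.symm ?_)
        exact H4.hasNormalPComplement_iff_mul_closed.1 (hnc q hqπ) a b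
          ((hq.coprime_iff_not_dvd).2 (piNum_compl_iff.1 ha q hq hqπ)).symm
          ((hq.coprime_iff_not_dvd).2 (piNum_compl_iff.1 hb q hq hqπ)).symm }
  have hmem : ∀ g, g ∈ L ↔ PiNum πᶜ (orderOf g) := fun g => Iff.rfl
  refine ⟨L, ⟨fun a ha g => by rw [hmem, H35.orderOf_conj]; exact ha⟩,
    isPiSubgroup_iff_piNum.1 (H1.isPiSubgroup_iff_orderOf.2 fun x hx => piNum_iff.1 hx), ?_, ?_⟩
  · refine piNum_iff.2 fun r hr hd => ?_
    by_contra hrπ
    haveI := Fact.mk hr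
    refine not_dvd_index_of_sylow_le (default : Sylow r G) (fun x hx => ?_) hd
    obtain ⟨k, hk⟩ := H35.isPElt_of_mem (default : Sylow r G).isPGroup' hx
    rw [hmem, hk]
    exact piNum_prime_pow hr hrπ k
  · intro a b
    refine piNum_compl_iff.2 fun q hq hqπ => ?_
    haveI := Fact.mk hq
    haveI : (pResidual q G).Normal := H4.pResidual_normal _ _
    have h1 := commutator_mem_of_isComplement'_comm
      (H4.isComplement'_pResidual (hnc q hqπ) default) (fun u hu v hv =>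
        (mem_centralizer_iff.1 (hN q hqπ default (le_normalizer hv)) u hu)) a b
    exact (hq.coprime_iff_not_dvd).1
      ((H4.mem_pResidual_iff_of_hasNormalPComplement (hnc q hqπ)).1 h1).symm

theorem isSolvable_of_abelian_of_commutator {L : Subgroup G} [L.Normal]
    (hL : L ≤ centralizer (L : Set G)) (h : ∀ a b : G, ⁅a, b⁆ ∈ L) : Group.IsSolvable G := by
  refine H1.isSolvable_of_normal_of_quotient L
    (H2.isSolvable_of_isMulCommutative (le_centralizer_iff_isMulCommutative.1 hL)) ?_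
  refine Group.isSolvable_of_comm fun x y => ?_
  obtain ⟨a, rfl⟩ := QuotientGroup.mk_surjective x
  obtain ⟨b, rfl⟩ := QuotientGroup.mk_surjective y
  exact commutator_mem_of_commute_mk.2 (h a b)

theorem solvable_of_not_burnside [Finite G] {p q : ℕ} [hp : Fact p.Prime] [hq : Fact q.Prime]
    (hH : ∀ x y : G, p ∣ cs⟦x⟧ → q ∣ cs⟦y⟧ → (cs⟦x⟧).Coprime cs⟦y⟧)
    (hp' : ∃ x : G, p ∣ cs⟦x⟧) (Q : Sylow q G)
    (hQ : ¬ normalizer ((Q : Subgroup G) : Set G) ≤ centralizer ((Q : Subgroup G) : Set G)) :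
    Group.IsSolvable G := by
  let σ : Set ℕ := {r | ∃ x : G, p ∣ cs⟦x⟧ ∧ r ∣ cs⟦x⟧}
  have hN : ∀ (r : ℕ) [Fact r.Prime], r ∈ σ → ∀ R : Sylow r G,
      normalizer ((R : Subgroup G) : Set G) ≤ centralizer ((R : Subgroup G) : Set G) := by
    intro r hr ⟨x, hx1, hx2⟩ R
    refine (ito_or (fun z => ?_) R Q).resolve_right hQ
    by_contra hc
    push Not at hc
    exact hr.out.one_lt.ne' (Nat.eq_one_of_dvd_coprimes (hH x z hx1 hc.2) hx2 hc.1)
  obtain ⟨L, hLn, hLc, -, hcomm⟩ := exists_piComplement hN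
  obtain ⟨x0, hx0⟩ := hp'
  obtain ⟨P⟩ : Nonempty (Sylow p G) := inferInstance
  have hP := hN p ⟨x0, hx0, hx0⟩ P
  have hn := normal_sup_of_commutator hcomm (P : Subgroup G)
  have hy : ∀ y ∈ L, y ∈ centralizer (L : Set G) ∨
      ∃ e ∈ L, e * y * e⁻¹ ∈ L ⊓ centralizer ((P : Subgroup G) : Set G) := by
    intro y hy
    by_cases h1 : p ∣ cs⟦y⟧
    · exact Or.inl (le_Cx_iff.1 (le_Cx_of_normal_of_coprime
        (hLc.coprime' (piNum_iff.2 fun r _ hr => ⟨y, h1, hr⟩))))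
    · obtain ⟨e, he, he'⟩ := exists_conj_mem_centralizer P hn hP h1
      exact Or.inr ⟨e, he, mem_inf.2 ⟨hLn.conj_mem _ hy _, he'⟩⟩
  have hLD : L ≤ normalizer ((L ⊓ centralizer ((P : Subgroup G) : Set G) : Subgroup G) : Set G) := by
    have h1 : L ≤ (L ⊓ centralizer ((P : Subgroup G) : Set G)) ⊔ (L ⊓ centralizer (L : Set G)) := by
      apply le_of_forall_exists_conj_mem
      intro y hy'
      rcases hy y hy' with h1 | ⟨e, he, h1⟩
      · exact ⟨1, L.one_mem, by simpa using mem_sup_right (mem_inf.2 ⟨hy', h1⟩)⟩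
      · exact ⟨e, he, mem_sup_left h1⟩
    refine h1.trans (sup_le le_normalizer (inf_le_right.trans ?_))
    exact (centralizer_le (SetLike.coe_subset_coe.2 inf_le_left)).trans
      (centralizer_le_normalizer _)
  have hLL : L ≤ centralizer (L : Set G) := by
    refine (le_or_le_of_forall_mem (B := L ⊓ centralizer ((P : Subgroup G) : Set G))
      fun y hy' => ?_).resolve_right
      fun hc => not_le_centralizer P hn hP ⟨x0, hx0⟩ (hc.trans inf_le_right)
    rcases hy y hy' with h1 | ⟨e, he, h1⟩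
    · exact Or.inl h1
    · right
      have := conj_mem_of_mem_normalizer' (hLD he) h1
      simpa [mul_assoc] using this
  exact isSolvable_of_abelian_of_commutator hLL hcomm

/-- Elements of `P` have class size dividing a class size divisible by `q`. -/
theorem exists_dvd_cs [Finite G] {p q : ℕ} [hp : Fact p.Prime] [hq : Fact q.Prime]
    (hnon : ∀ x : G, p ∣ cs⟦x⟧ → ¬ q ∣ cs⟦x⟧) (hq' : ∃ x : G, q ∣ cs⟦x⟧)
    {K : Subgroup G} [hKn : K.Normal] (hKp : ¬ p ∣ Nat.card K) (hKq : ¬ q ∣ Nat.card K)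
    (hcomm : ∀ a b : G, ⁅a, b⁆ ∈ K) (P : Sylow p G) (Q : Sylow q G)
    (hP : normalizer ((P : Subgroup G) : Set G) ≤ centralizer ((P : Subgroup G) : Set G))
    (hQ : normalizer ((Q : Subgroup G) : Set G) ≤ centralizer ((Q : Subgroup G) : Set G))
    (hPQ : (Q : Subgroup G) ≤ centralizer ((P : Subgroup G) : Set G))
    {u : G} (hu : u ∈ (P : Subgroup G)) : ∃ y : G, q ∣ cs⟦y⟧ ∧ cs⟦u⟧ ∣ cs⟦y⟧ := by
  by_contra hc
  push Not at hc
  have hnQ := normal_sup_of_commutator hcomm (Q : Subgroup G)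
  have hnP := normal_sup_of_commutator hcomm (P : Subgroup G)
  have hQu : (Q : Subgroup G) ≤ Cx⟦u⟧ := fun v hv =>
    mem_Cx'.2 (mem_centralizer_iff.1 (hPQ hv) u hu)
  have hF : K ⊓ Cx⟦u⟧ ≤ centralizer ((Q : Subgroup G) : Set G) := by
    apply le_of_forall_exists_conj_mem
    intro c hc'
    have hcu : Commute c u := mem_Cx_iff_commute'.1 hc'.2
    have hco : (orderOf c).Coprime (orderOf u) := by
      obtain ⟨k, hk⟩ := H35.isPElt_of_mem P.isPGroup' hu
      rw [hk]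
      refine Nat.Coprime.pow_right k (Nat.Coprime.symm ((hp.out.coprime_iff_not_dvd).2 fun hd => ?_))
      exact hKp (hd.trans (H1.orderOf_dvd_card_of_mem hc'.1))
    have h1 : ¬ q ∣ cs⟦c * u⟧ := fun h => hc _ h (cs_dvd_cs_mul_right hcu hco)
    obtain ⟨Q', hQ'⟩ := not_dvd_cs_iff.1 h1
    rw [Cx_mul_of_coprime hcu hco] at hQ'
    have h2 : (Q' : Subgroup G) ≤ (K ⊓ Cx⟦u⟧) ⊔ (Q : Subgroup G) := by
      intro v hv
      have h3 : v ∈ K ⊔ (Q : Subgroup G) := by
        obtain ⟨g, rfl⟩ := MulAction.exists_smul_eq G Q Q'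
        have h4 : g⁻¹ * v * g ∈ (Q : Subgroup G) := H1.mem_conj_smul_iff.1 hv
        have h5 := hnQ.conj_mem _ (mem_sup_right h4) g
        simpa [mul_assoc] using h5
      obtain ⟨k, hk, w, hw, rfl⟩ := mem_sup_of_normal_left.1 h3
      refine mul_mem (mem_sup_left ⟨hk, ?_⟩) (mem_sup_right hw)
      exact (Subgroup.mul_mem_cancel_right _ (hQu hw)).1 (hQ' hv).2
    have h6 : (Nat.card (Q' : Subgroup G)).Coprime (Nat.card (K ⊓ Cx⟦u⟧ : Subgroup G)) := by
      obtain ⟨k, hk⟩ := IsPGroup.iff_card.1 Q'.isPGroup'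
      rw [hk]
      refine Nat.Coprime.pow_left k ((hq.out.coprime_iff_not_dvd).2 fun hd => ?_)
      exact hKq (hd.trans (card_dvd_of_le inf_le_left))
    haveI : Group.IsNilpotent (Q' : Subgroup G) := Q'.isPGroup'.isNilpotent
    obtain ⟨e, he, he'⟩ := H2.exists_conj_le_of_coprime (A := (Q : Subgroup G)) (K := K ⊓ Cx⟦u⟧)
      (H2.le_normalizer_inf le_normalizer_of_normal (hQu.trans le_normalizer)) h2 h6
      (Or.inl inferInstance)
    have h7 : ((e • Q' : Sylow q G) : Subgroup G) = Q := by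
      refine congrArg _ (Sylow.ext ?_)
      refine (e • Q').is_maximal' Q.isPGroup' ?_ |>.symm
      intro v hv
      have h8 : e⁻¹ * v * e ∈ (Q' : Subgroup G) := H1.mem_conj_smul_iff.1 hv
      have := he' _ h8
      simpa [mul_assoc] using this
    refine ⟨e, he, mem_centralizer_iff.2 fun v hv => ?_⟩
    rw [← h7] at hv
    have h8 : e⁻¹ * v * e ∈ (Q' : Subgroup G) := H1.mem_conj_smul_iff.1 hv
    have h9 := mem_Cx.1 (hQ' h8).1
    calc v * (e * c * e⁻¹) = e * (e⁻¹ * v * e * c) * e⁻¹ := by group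
      _ = e * c * e⁻¹ * v := by rw [h9]; group
  obtain ⟨y, hy, hy'⟩ := exists_mem_dvd_cs Q hnQ hQ hq'
  obtain ⟨e, he, he'⟩ := exists_conj_mem_centralizer P hnP hP (fun h => hnon y h hy')
  have h1 : e * y * e⁻¹ ∈ K ⊓ Cx⟦u⟧ :=
    ⟨hKn.conj_mem _ hy _, mem_Cx'.2 (mem_centralizer_iff.1 he' u hu)⟩
  rw [← cs_conj e y] at hy'
  exact not_dvd_cs_iff.2 ⟨Q, le_Cx_iff.2 (hF h1)⟩ hy'

theorem sylow_le_normalClosure [Finite G] {p : ℕ} [Fact p.Prime] (P P' : Sylow p G) :
    (P' : Subgroup G) ≤ normalClosure ((P : Subgroup G) : Set G) := by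
  intro v hv
  obtain ⟨g, rfl⟩ := MulAction.exists_smul_eq G P P'
  have h4 : g⁻¹ * v * g ∈ (P : Subgroup G) := H1.mem_conj_smul_iff.1 hv
  have h5 := (normalClosure_normal (s := ((P : Subgroup G) : Set G))).conj_mem _
    (subset_normalClosure h4) g
  simpa [mul_assoc] using h5

theorem false_of_burnside [Finite G] {p q : ℕ} [hp : Fact p.Prime] [hq : Fact q.Prime]
    (hH : ∀ x y : G, p ∣ cs⟦x⟧ → q ∣ cs⟦y⟧ → (cs⟦x⟧).Coprime cs⟦y⟧)
    (hp' : ∃ x : G, p ∣ cs⟦x⟧) (hq' : ∃ x : G, q ∣ cs⟦x⟧)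
    (hP : ∀ P : Sylow p G,
      normalizer ((P : Subgroup G) : Set G) ≤ centralizer ((P : Subgroup G) : Set G))
    (hQ : ∀ Q : Sylow q G,
      normalizer ((Q : Subgroup G) : Set G) ≤ centralizer ((Q : Subgroup G) : Set G)) : False := by
  have hnon : ∀ x : G, p ∣ cs⟦x⟧ → ¬ q ∣ cs⟦x⟧ := fun x h1 h2 =>
    hp.out.one_lt.ne' (Nat.eq_one_of_dvd_coprimes (hH x x h1 h2) h1 h1)
  have hpq : p ≠ q := by
    rintro rfl
    obtain ⟨x, hx⟩ := hp'
    exact hnon x hx hx
  obtain ⟨K, hKn, hKc, -, hcomm⟩ := exists_piComplement (G := G) (π := {p, q}) (by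
    intro r _ hr
    rcases hr with rfl | rfl
    · exact hP
    · exact hQ)
  have hKp : ¬ p ∣ Nat.card K := piNum_compl_iff.1 hKc p hp.out (Or.inl rfl)
  have hKq : ¬ q ∣ Nat.card K := piNum_compl_iff.1 hKc q hq.out (Or.inr rfl)
  obtain ⟨P⟩ : Nonempty (Sylow p G) := inferInstance
  have hnP := normal_sup_of_commutator hcomm (P : Subgroup G)
  have h1 : ¬ q ∣ (centralizer ((P : Subgroup G) : Set G)).index := by
    rw [← relIndex_eq_index_of_forall_mul (K := K) (fun g => ?_)]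
    · exact fun hd => hKq (hd.trans (relIndex_dvd_card _ _))
    · obtain ⟨n, hn, e, he, h⟩ := exists_normalizer_mul P hnP g⁻¹
      refine ⟨e⁻¹, inv_mem he, n⁻¹, inv_mem (hP P hn), ?_⟩
      rw [← mul_inv_rev, ← h, inv_inv]
  obtain ⟨Q, hPQ⟩ := exists_sylow_le_of_not_dvd_index h1
  have hQP : (P : Subgroup G) ≤ centralizer ((Q : Subgroup G) : Set G) := le_centralizer_iff.1 hPQ
  have hcop : ∀ u ∈ (P : Subgroup G), ∀ v ∈ (Q : Subgroup G), (cs⟦u⟧).Coprime cs⟦v⟧ := by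
    intro u hu v hv
    obtain ⟨y, hy1, hy2⟩ := exists_dvd_cs hnon hq' hKp hKq hcomm P Q (hP P) (hQ Q) hPQ hu
    obtain ⟨x, hx1, hx2⟩ := exists_dvd_cs (fun x h1 h2 => hnon x h2 h1) hp' hKq hKp hcomm Q P
      (hQ Q) (hP P) hQP hv
    exact (((hH x y hx1 hy1).coprime_dvd_left hx2).coprime_dvd_right hy2).symm
  set M := normalClosure ((P : Subgroup G) : Set G) with hM
  set M' := normalClosure ((Q : Subgroup G) : Set G) with hM'
  have h2 : M ≤ centralizer ((Q : Subgroup G) : Set G) := by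
    refine (closure_le _).2 fun w hw => ?_
    obtain ⟨u, hu, hw⟩ := Group.mem_conjugatesOfSet_iff.1 hw
    obtain ⟨g, rfl⟩ := isConj_iff.1 hw
    refine mem_centralizer_iff.2 fun v hv => ?_
    obtain ⟨a, ha, k, hk, rfl⟩ := exists_mul_of_coprime_index (hcop u hu v hv).symm g
    have h3 : k * u * k⁻¹ = u := mem_Cx_iff_conj.1 hk
    have h4 : a * k * u * (a * k)⁻¹ = a * (k * u * k⁻¹) * a⁻¹ := by group
    rw [h4, h3]
    have h5 : u ∈ Cx⟦v⟧ := mem_Cx'.2 (mem_centralizer_iff.1 (hQP hu) v hv)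
    exact mem_Cx'.1 (mul_mem (mul_mem ha h5) (inv_mem ha))
  have h3 : M' ≤ centralizer (M : Set G) :=
    normalClosure_le_normal (le_centralizer_iff.1 h2)
  have hnM : (M ⊔ (P : Subgroup G)).Normal := by
    rw [sup_eq_left.2 (sylow_le_normalClosure P P)]; infer_instance
  have hnM' : (M' ⊔ (Q : Subgroup G)).Normal := by
    rw [sup_eq_left.2 (sylow_le_normalClosure Q Q)]; infer_instance
  obtain ⟨x, hx, hx'⟩ := exists_mem_dvd_cs P hnM (hP P) hp'
  obtain ⟨y, hy, hy'⟩ := exists_mem_dvd_cs Q hnM' (hQ Q) hq'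
  refine hnon (x * y) ?_ ?_
  · by_contra hc
    obtain ⟨P', hP'⟩ := not_dvd_cs_iff.1 hc
    refine not_dvd_cs_iff.2 ⟨P', fun w hw => ?_⟩ hx'
    have h4 := mem_Cx.1 (hP' hw)
    have h5 := mem_centralizer_iff.1 (h3 hy) w (sylow_le_normalClosure P P' hw)
    rw [mul_assoc, ← h5, ← mul_assoc, ← mul_assoc, mul_left_inj] at h4
    exact mem_Cx.2 h4
  · by_contra hc
    obtain ⟨Q', hQ'⟩ := not_dvd_cs_iff.1 hc
    refine not_dvd_cs_iff.2 ⟨Q', fun w hw => ?_⟩ hy'
    have h4 := mem_Cx.1 (hQ' hw)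
    have h5 := mem_centralizer_iff.1 (h3 (sylow_le_normalClosure Q Q' hw)) x hx
    rw [← mul_assoc, ← h5, mul_assoc, mul_assoc, mul_right_inj] at h4
    exact mem_Cx.2 h4

theorem solvable_of_coprime_cs [Finite G] {p q : ℕ} [hp : Fact p.Prime] [hq : Fact q.Prime]
    (hH : ∀ x y : G, p ∣ cs⟦x⟧ → q ∣ cs⟦y⟧ → (cs⟦x⟧).Coprime cs⟦y⟧)
    (hp' : ∃ x : G, p ∣ cs⟦x⟧) (hq' : ∃ x : G, q ∣ cs⟦x⟧) : Group.IsSolvable G := by
  by_cases hQ : ∀ Q : Sylow q G,
      normalizer ((Q : Subgroup G) : Set G) ≤ centralizer ((Q : Subgroup G) : Set G)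
  · by_cases hP : ∀ P : Sylow p G,
        normalizer ((P : Subgroup G) : Set G) ≤ centralizer ((P : Subgroup G) : Set G)
    · exact (false_of_burnside hH hp' hq' hP hQ).elim
    · push Not at hP
      obtain ⟨P, hP⟩ := hP
      exact solvable_of_not_burnside (fun x y hx hy => (hH y x hy hx).symm) hq' P hP
  · push Not at hQ
    obtain ⟨Q, hQ⟩ := hQ
    exact solvable_of_not_burnside hH hp' Q hQ

end H93CS
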