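import Mathlib
import Cfsg.Agent.S4700
import Cfsg.Agent.S4343
import Cfsg.Agent.Lib.FGS83.SylCount2
import Cfsg.Agent.Lib.Core.Hall
import Cfsg.Agent.Lib.Core.PCore
import Cfsg.Agent.Lib.GL.Basic

/-! Groups with fewer than `p ^ 2` Sylow `p`-subgroups. -/

set_option autoImplicit false
set_option linter.style.haveILetI false

namespace H93SN

open Subgroup Cfsg

universe u

theorem succ_le_of_modEq {a p : ℕ} (h : a ≡ 1 [MOD p]) (h0 : a ≠ 0) (h1 : a ≠ 1) : p + 1 ≤ a := by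
  have h2 : 1 ≤ a := Nat.pos_of_ne_zero h0
  have := Nat.le_of_dvd (by omega) ((Nat.modEq_iff_dvd' h2).1 h.symm)
  omega

theorem eq_one_or {a b p : ℕ} (ha : a ≡ 1 [MOD p]) (hb : b ≡ 1 [MOD p]) (h0 : a * b ≠ 0)
    (h : a * b < p ^ 2) : a = 1 ∨ b = 1 := by
  by_contra hc
  push Not at hc
  have h1 := succ_le_of_modEq ha (left_ne_zero_of_mul h0) hc.1
  have h2 := succ_le_of_modEq hb (right_ne_zero_of_mul h0) hc.2
  nlinarith [Nat.mul_le_mul h1 h2]

theorem primePow_of_parts {p m : ℕ} (hm0 : m ≠ 0) (hm : m < p ^ 2)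
    (h : ∀ q : ℕ, q.Prime → q ^ m.factorization q ≡ 1 [MOD p]) :
    ∃ q k : ℕ, q.Prime ∧ m = q ^ k := by
  by_cases h1 : m = 1
  · exact ⟨2, 0, Nat.prime_two, h1⟩
  have hq := Nat.minFac_prime h1
  refine ⟨m.minFac, _, hq, Nat.eq_prime_pow_of_unique_prime_dvd hm0 fun {r} hr hd => ?_⟩
  by_contra hne
  have hne1 : ∀ {s : ℕ}, s.Prime → s ∣ m → s ^ m.factorization s ≠ 1 := fun hs hsd e =>
    (hs.factorization_pos_of_dvd hm0 hsd).ne' ((Nat.pow_eq_one.1 e).resolve_left hs.one_lt.ne')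
  have h2 := Nat.Coprime.mul_dvd_of_dvd_of_dvd
    (Nat.coprime_pow_primes _ _ hr hq hne) (Nat.ordProj_dvd m r) (Nat.ordProj_dvd m m.minFac)
  rcases eq_one_or (h r hr) (h _ hq) (ne_zero_of_dvd_ne_zero hm0 h2)
    ((Nat.le_of_dvd (Nat.pos_of_ne_zero hm0) h2).trans_lt hm) with e | e
  · exact hne1 hr hd e
  · exact hne1 hq (Nat.minFac_dvd m) e

/-- Brauer's exceptional values below `p ^ 2`. -/
theorem rep_shape {p n h u : ℕ} (hh : 0 < h) (hu : 0 < u) (hp : 1 < p) (hn : 1 + n * p < p ^ 2)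
    (e : n * (u + 1) = h * u * p + u ^ 2 + u + h) :
    ∃ s : ℕ, u < s ∧ p = (u + 1) * s + 1 ∧ 1 + n * p = (1 + u * s) * (p + u + 1) := by
  have hnp : n < p := by
    by_contra hc
    have : p * p ≤ n * p := Nat.mul_le_mul_right p (not_lt.1 hc)
    nlinarith
  have h1 : h = 1 := by
    by_contra hc
    obtain ⟨h', rfl⟩ : ∃ h', h = h' + 2 := ⟨h - 2, by omega⟩
    have h2 : (n + 1) * (u + 1) ≤ p * (u + 1) := Nat.mul_le_mul_right _ hnp
    have h3 : p ≤ u * p := Nat.le_mul_of_pos_left p hu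
    nlinarith [Nat.zero_le (h' * u * p), Nat.zero_le (u ^ 2)]
  subst h1
  obtain ⟨p', rfl⟩ : ∃ p', p = p' + 1 := ⟨p - 1, by omega⟩
  have h2 : u + 1 ∣ p' := by
    have h3 : n * (u + 1) + p' = (u + 1) * (p' + u + 1) := by rw [e]; ring
    exact (Nat.dvd_add_right (Dvd.intro_left n rfl)).1 (h3 ▸ Dvd.intro _ rfl)
  obtain ⟨s, rfl⟩ := h2
  have h4 : n + s = (u + 1) * s + 1 + u := by
    apply Nat.eq_of_mul_eq_mul_right (Nat.succ_pos u)
    rw [Nat.succ_eq_add_one, add_mul, e]; ring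
  refine ⟨s, by omega, rfl, ?_⟩
  have h5 : n = u * s + 1 + u := by
    have : (u + 1) * s = u * s + s := by ring
    omega
  rw [h5]; ring

theorem rep_not_primePow {u s q k : ℕ} (hu : 0 < u) (hus : u < s) (hq : q.Prime)
    (e : (1 + u * s) * ((u + 1) * s + 1 + u + 1) = q ^ k) : False := by
  obtain ⟨a, -, ha⟩ := (Nat.dvd_prime_pow hq).1 (Dvd.intro _ e)
  obtain ⟨b, -, hb⟩ := (Nat.dvd_prime_pow hq).1 (Dvd.intro_left _ e)
  have h1 : q ^ a < q ^ b := by rw [← ha, ← hb]; nlinarith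
  have h2 : q ^ a ∣ q ^ b := pow_dvd_pow q ((Nat.pow_lt_pow_iff_right hq.one_lt).1 h1).le
  rw [← ha, ← hb, show (u + 1) * s + 1 + u + 1 = (1 + u * s) + (u + s + 1) by ring] at h2
  have h3 : 1 + u * s ∣ u + s + 1 := (Nat.dvd_add_right dvd_rfl).1 h2
  have h4 := Nat.le_of_dvd (by omega) h3
  have h5 : u = 1 := by
    by_contra hc
    obtain ⟨u', rfl⟩ : ∃ u', u = u' + 2 := ⟨u - 2, by omega⟩
    obtain ⟨s', rfl⟩ : ∃ s', s = u' + 3 + s' := ⟨s - (u' + 3), by omega⟩
    nlinarith [Nat.zero_le (u' * u'), Nat.zero_le (u' * s')]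
  subst h5
  rw [show 1 + s + 1 = (1 + 1 * s) + 1 by ring] at h3
  have := Nat.le_of_dvd one_pos ((Nat.dvd_add_right dvd_rfl).1 h3)
  omega

theorem eq_one_of_dvd_psl {p n : ℕ} (hp : 1 < p) (hn : n ≠ 0)
    (h : 1 + n * p ∣ (p - 1) * (p + 1)) : n = 1 := by
  obtain ⟨p', rfl⟩ : ∃ p', p = p' + 2 := ⟨p - 2, by omega⟩
  obtain ⟨y, hy⟩ := h
  rw [show p' + 2 - 1 = p' + 1 by omega] at hy
  have h1 : p' + 2 ∣ y + 1 := by
    have h2 : (p' + 2) * (p' + 2) = (y + 1) + (p' + 2) * (n * y) := by nlinarith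
    exact (Nat.dvd_add_left (Dvd.intro _ rfl)).1 (h2 ▸ Dvd.intro _ rfl)
  have h3 := Nat.le_of_dvd (Nat.succ_pos y) h1
  by_contra hc
  have h4 : 2 ≤ n := by omega
  have h5 : (1 + 2 * (p' + 2)) * (p' + 1) ≤ (1 + n * (p' + 2)) * y :=
    Nat.mul_le_mul (by nlinarith) (by omega)
  nlinarith

variable {G : Type u} [Group G] [Finite G] {p : ℕ} [hp : Fact p.Prime]

theorem exists_n (G : Type*) [Group G] [Finite G] (p : ℕ) [hp : Fact p.Prime] :
    ∃ n, Nat.card (Sylow p G) = 1 + n * p := by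
  refine ⟨Nat.card (Sylow p G) / p, ?_⟩
  have := card_sylow_modEq_one p G
  rw [Nat.ModEq, Nat.mod_eq_of_lt hp.out.one_lt] at this
  rw [← this, Nat.mod_add_div']

theorem card_sylow_ne_zero : Nat.card (Sylow p G) ≠ 0 := Nat.card_pos.ne'

theorem card_sylow_dvd_of_mul {c m : ℕ} (h : c * Nat.card G = p * m) :
    Nat.card (Sylow p G) ∣ m := by
  obtain ⟨P⟩ := (inferInstance : Nonempty (Sylow p G))
  have h1 : Nat.card (Sylow p G) ∣ p * m :=
    h ▸ (P.card_dvd_index.trans (index_dvd_card _)).mul_left c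
  exact ((Nat.Prime.coprime_iff_not_dvd hp.out).2 (not_dvd_card_sylow p G)).symm.dvd_of_dvd_mul_left h1

theorem card_sylow_normal_dvd (K : Subgroup G) [K.Normal] :
    Nat.card (Sylow p K) ∣ Nat.card (Sylow p G) := by
  obtain ⟨P⟩ := (inferInstance : Nonempty (Sylow p G))
  have hS : H68.SylowIn p ((P : Subgroup G) ⊓ K) K :=
    (H68.sylowIn_top P).inf_of_normal_le (by rw [normalizer_eq_top]) le_top
  have h2 := hS.frattini_sup (H := ⊤) le_top (by rw [normalizer_eq_top])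
  rw [top_inf_eq] at h2
  rw [H83.card_sylow_normal P K, P.card_eq_index_normalizer,
    ← H3.relIndex_sup_right_of_le_normalizer (le_normalizer_of_normal (H := K)), h2,
    relIndex_top_right]
  refine index_dvd_of_le ((le_inf le_rfl ?_).trans inf_normalizer_le_normalizer_inf)
  rw [normalizer_eq_top]; exact le_top

/-- The data given by Brauer's theorem for a simple group. -/
theorem simple_cases [IsSimpleGroup G] (hG : ¬ IsMulCommutative G) (hd : p ∣ Nat.card G)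
    (hn : Nat.card (Sylow p G) < p ^ 2) :
    (3 < p ∧ Nat.card (Sylow p G) = p + 1 ∧ ∃ (F : Type) (_ : Field F) (_ : Fintype F),
      Fintype.card F = p ∧ Nonempty (G ≃* Matrix.ProjectiveSpecialLinearGroup (Fin 2) F)) ∨
    (∃ m, p = 2 ^ m + 1 ∧ 3 < p ∧ Nat.card (Sylow p G) ∣ (p - 1) * (p - 2) ∧
      p < Nat.card (Sylow p G) ∧ ∃ (F : Type) (_ : Field F) (_ : Fintype F),
      Fintype.card F = 2 ^ m ∧ Nonempty (G ≃* Matrix.SpecialLinearGroup (Fin 2) F)) ∨
    ∃ u s : ℕ, 0 < u ∧ u < s ∧ p = (u + 1) * s + 1 ∧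
      Nat.card (Sylow p G) = (1 + u * s) * (p + u + 1) := by
  have hperf : commutator G = ⊤ := (Subgroup.Normal.eq_bot_or_eq_top inferInstance).resolve_left
    fun h => hG ((commutator_eq_bot_iff G).1 h)
  obtain ⟨P⟩ := (inferInstance : Nonempty (Sylow p G))
  have hP := Cfsg.Agent.S4343.result hG p hd hn P
  obtain ⟨n, hs⟩ := exists_n G p
  have hn0 : n ≠ 0 := by
    rintro rfl
    rw [zero_mul, add_zero, P.card_eq_index_normalizer, index_eq_one] at hs
    exact H84.not_normal_sylow hG hd P (normalizer_eq_top_iff.1 hs)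
  have hO : pPrimeCore p G = ⊥ := (Subgroup.Normal.eq_bot_or_eq_top inferInstance).resolve_right
    fun h => H1.not_dvd_card_pPrimeCore (p := p) (G := G) (by rwa [h, card_top])
  have f : G ≃* G ⧸ pPrimeCore p G :=
    (QuotientGroup.quotientBot.symm).trans (QuotientGroup.quotientMulEquivOfEq hO.symm)
  rcases Cfsg.Agent.S4700.result hperf p P hP n hs with
    ⟨F, _, _, hF, h3, ⟨e⟩⟩ | ⟨m, F, _, _, hF, hm, h3, ⟨e⟩⟩ | ⟨h, u, hh, hu, e⟩
  · refine Or.inl ⟨h3, ?_, F, _, _, hF, ⟨f.trans e⟩⟩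
    have h4 := H10.card_PSL_two (F := F)
    rw [Nat.card_eq_fintype_card (α := F), hF, ← Nat.card_congr (f.trans e).toEquiv,
      mul_assoc] at h4
    have h5 := card_sylow_dvd_of_mul h4
    rw [hs] at h5
    rw [hs, eq_one_of_dvd_psl hp.out.one_lt hn0 h5]; ring
  · refine Or.inr (Or.inl ⟨m, hm, h3, ?_, ?_, F, _, _, hF, ⟨f.trans e⟩⟩)
    · have h4 := H10.card_SL_two (F := F)
      rw [Nat.card_eq_fintype_card (α := F), hF, ← Nat.card_congr (f.trans e).toEquiv] at h4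
      refine card_sylow_dvd_of_mul (c := 1) ?_
      rw [one_mul, h4, ← hm, mul_comm _ p, hm, Nat.add_sub_cancel]
      rfl
    · rw [hs]
      have := Nat.le_mul_of_pos_left p (Nat.pos_of_ne_zero hn0)
      omega
  · obtain ⟨s, h1, h2, h3⟩ := rep_shape hh hu hp.out.one_lt (hs ▸ hn) e
    exact Or.inr (Or.inr ⟨u, s, hu, h1, h2, hs.trans h3⟩)

theorem simple_not_primePow [IsSimpleGroup G] (hG : ¬ IsMulCommutative G) (hd : p ∣ Nat.card G)
    (hM : ¬ (3 < p ∧ ∃ k : ℕ, p + 1 = 2 ^ k)) (hn : Nat.card (Sylow p G) < p ^ 2) {q k : ℕ}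
    (hq : q.Prime) (e : Nat.card (Sylow p G) = q ^ k) : False := by
  rcases simple_cases hG hd hn with ⟨h3, h1, -⟩ | ⟨m, -, h3, h1, h2, -⟩ | ⟨u, s, hu, hus, h1, h2⟩
  · refine hM ⟨h3, k, ?_⟩
    have h2 : 2 ∣ q ^ k := by
      rw [← e, h1]
      exact (hp.out.odd_of_ne_two (by omega)).add_one.two_dvd
    rw [(Nat.prime_dvd_prime_iff_eq Nat.prime_two hq).1 (Nat.prime_two.dvd_of_dvd_pow h2), ← e, h1]
  · rw [e] at h1 h2
    have hco : (p - 1).Coprime (p - 2) := by
      rw [show p - 1 = (p - 2) + 1 by omega]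
      simp
    by_cases h4 : q ∣ p - 1
    · have h5 : (q ^ k).Coprime (p - 2) := Nat.Coprime.pow_left k
        ((Nat.Prime.coprime_iff_not_dvd hq).2 fun h6 =>
          hq.one_lt.ne' (Nat.eq_one_of_dvd_coprimes hco h4 h6))
      have := Nat.le_of_dvd (by omega) (h5.dvd_of_dvd_mul_right h1)
      omega
    · have h5 : (q ^ k).Coprime (p - 1) := Nat.Coprime.pow_left k
        ((Nat.Prime.coprime_iff_not_dvd hq).2 h4)
      have := Nat.le_of_dvd (by omega) (h5.dvd_of_dvd_mul_left h1)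
      omega
  · rw [e, h1] at h2
    exact rep_not_primePow hu hus hq h2.symm

theorem sep_of_primePow_aux (hM : ¬ (3 < p ∧ ∃ k : ℕ, p + 1 = 2 ^ k)) {q : ℕ} (hq : q.Prime)
    (n : ℕ) : ∀ (G : Type u) [Group G] [Finite G], Nat.card G = n →
      Nat.card (Sylow p G) < p ^ 2 → (∃ k, Nat.card (Sylow p G) ∣ q ^ k) →
      H3.IsPiSeparable {p} G := by
  induction n using Nat.strong_induction_on with
  | _ n ih =>
    intro G _ _ hn hlt ⟨k, hk⟩
    by_cases hd : p ∣ Nat.card G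
    swap
    · have := (H3.isPiSeparable_of_piNum (G := G) ((H3.piNum_compl_singleton_iff hp.out).2
        ((Nat.Prime.coprime_iff_not_dvd hp.out).2 hd).symm)).compl
      rwa [compl_compl] at this
    by_cases hG : IsMulCommutative G
    · letI : CommGroup G := { (inferInstance : Group G) with mul_comm := hG.is_comm.comm }
      exact H3.isPiSeparable_of_isSolvable _
    by_cases hs : ∀ K : Subgroup G, K.Normal → K = ⊥ ∨ K = ⊤
    · have : Nontrivial G := by
        rw [← Finite.one_lt_card_iff_nontrivial]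
        exact hp.out.one_lt.trans_le (Nat.le_of_dvd Nat.card_pos hd)
      have : IsSimpleGroup G := ⟨hs⟩
      obtain ⟨j, -, hj⟩ := (Nat.dvd_prime_pow hq).1 hk
      exact (simple_not_primePow hG hd hM hlt hq hj).elim
    push Not at hs
    obtain ⟨K, hK, h0, h1⟩ := hs
    obtain ⟨P⟩ := (inferInstance : Nonempty (Sylow p G))
    have h2 := card_sylow_normal_dvd (p := p) K
    have h3 : Nat.card (Sylow p (G ⧸ K)) ∣ Nat.card (Sylow p G) :=
      Dvd.intro _ (H83.card_sylow_eq_quotient_mul K P).symm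
    exact H3.IsPiSeparable.extension K
      (ih _ (hn ▸ H1.card_lt_of_ne_top h1) K rfl ((Nat.le_of_dvd Nat.card_pos h2).trans_lt hlt)
        ⟨k, h2.trans hk⟩)
      (ih _ (hn ▸ H1.card_quotient_lt h0) (G ⧸ K) rfl
        ((Nat.le_of_dvd Nat.card_pos h3).trans_lt hlt) ⟨k, h3.trans hk⟩)

theorem parts_of_sep {q : ℕ} (hq : q.Prime) (n : ℕ) :
    ∀ (G : Type u) [Group G] [Finite G], Nat.card G = n → H3.IsPiSeparable {p} G →
      q ^ (Nat.card (Sylow p G)).factorization q ≡ 1 [MOD p] := by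
  induction n using Nat.strong_induction_on with
  | _ n ih =>
    intro G _ _ hn hG
    obtain ⟨P⟩ : Nonempty (Sylow p G) := inferInstance
    rcases subsingleton_or_nontrivial G with h0 | h0
    · have : normalizer (P : Set G) = ⊤ := Subsingleton.elim _ _
      rw [Sylow.card_eq_index_normalizer P, this, index_top]
      simp [Nat.ModEq]
    obtain ⟨K, hK, hne, h1⟩ := hG.exists_normal
    have h2 := ih _ (hn ▸ H1.card_quotient_lt hne) (G ⧸ K) rfl (hG.quotient K)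
    rcases h1 with h1 | h1
    · obtain ⟨k, hk⟩ := (H3.piNum_singleton_iff hp.out Nat.card_pos.ne').1 h1
      rwa [H83.card_sylow_quotient_of_isPGroup K (IsPGroup.of_card hk)] at h2
    · have n0 : (normalizer (P : Set G)).relIndex K ≠ 0 := FiniteIndex.index_ne_zero
      rw [H83.card_sylow_eq_quotient_mul K P, Nat.factorization_mul Nat.card_pos.ne' n0,
        Finsupp.add_apply, pow_add]
      have h3 := H83.ordProj_relIndex_normalizer_modEq_one P (K := K) le_normalizer_of_normal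
        (fun h => h1 p hp.out h rfl) hq
      simpa using h2.mul h3

theorem pSolvable_iff (hM : ¬ (3 < p ∧ ∃ k : ℕ, p + 1 = 2 ^ k))
    (hn : Nat.card (Sylow p G) < p ^ 2) :
    IsPSolvable p G ↔ ∃ q k : ℕ, q.Prime ∧ Nat.card (Sylow p G) = q ^ k := by
  rw [H3.isPSolvable_iff_isPiSeparable hp.out]
  constructor
  · exact fun h => primePow_of_parts card_sylow_ne_zero hn fun q hq => parts_of_sep hq _ G rfl h
  · rintro ⟨q, k, hq, e⟩
    exact sep_of_primePow_aux hM hq _ G rfl hn ⟨k, e.dvd⟩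

end H93SN
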