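import Mathlib
import Cfsg.Agent.Lib.LocEven.Basic
import Cfsg.Agent.Lib.Core.Hall
import Cfsg.Agent.Lib.Core.Fitting

/-! A finite group with at most two conjugacy classes of maximal subgroups is solvable. -/

set_option autoImplicit false

namespace H93TM

open Subgroup H68

universe u

variable {G : Type u} [Group G] [Finite G]

theorem index_cj (g : G) (H : Subgroup G) : (cj g H).index = H.index := by
  have h1 := (cj g H).card_mul_index
  have h2 := H.card_mul_index
  rw [card_cj] at h1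
  exact Nat.eq_of_mul_eq_mul_left Nat.card_pos (h1.trans h2.symm)

/-- One step of the descent. -/
theorem step {M L U : Subgroup G} {q : ℕ} [Fact q.Prime] (hU : IsPGroup q U) {g k : G}
    (hg : U ≤ cj g M) (hk : normalizer (U : Set G) ≤ cj k M)
    (ih : ∀ V : Subgroup G, U < V → IsPGroup q V → ∀ a b : G, cj a M ≠ cj b M → V ≤ cj a M →
      V ≤ cj b M → Nat.card V ∣ Nat.card L) :
    cj g M = cj k M ∨ Nat.card U ∣ Nat.card L := by
  by_cases hS : SylowIn q U (cj g M)
  · left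
    have h1 : SylowIn q (cj (k * g⁻¹) U) (cj k M) := by
      have := hS.cj (k * g⁻¹)
      rwa [← cj_mul, inv_mul_cancel_right] at this
    have h2 : SylowIn q U (cj k M) :=
      h1.of_card_le hU (le_normalizer.trans hk) (card_cj _ _).le
    obtain ⟨m, hm, e⟩ := h1.exists_cj_eq h2
    rw [← cj_mul] at e
    have h3 : m * (k * g⁻¹) ∈ cj k M := hk (mem_normalizer_iff_cj.2 e)
    have h4 : (k * g⁻¹)⁻¹ ∈ cj k M := inv_mem ((mul_mem_cancel_left hm).1 h3)
    have h5 := cj_eq_of_mem h4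
    rw [← cj_mul] at h5
    rw [← h5]
    congr 1
    group
  · by_cases e : cj g M = cj k M
    · exact Or.inl e
    right
    have h1 : ¬ SylowIn q U (cj g M ⊓ normalizer (U : Set G)) :=
      fun h => hS (sylowIn_of_sylowIn_normalizer h)
    obtain ⟨V, hV, hUV⟩ := exists_sylowIn_ge hU (le_inf hg le_normalizer)
    have hne : U ≠ V := fun h => h1 (h ▸ hV)
    exact (card_dvd_of_le hUV).trans (ih V (lt_of_le_of_ne hUV hne) hV.isPGroup g k e
      (hV.le.trans inf_le_left) (hV.le.trans (inf_le_right.trans hk)))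

theorem key {M L : Subgroup G} {q : ℕ} [Fact q.Prime]
    (hN : ∀ U : Subgroup G, IsPGroup q U → U ≠ ⊥ →
      ∃ k, normalizer (U : Set G) ≤ cj k M ∨ normalizer (U : Set G) ≤ cj k L) (U : Subgroup G) :
    IsPGroup q U → ∀ a b : G, cj a M ≠ cj b M → U ≤ cj a M → U ≤ cj b M →
      Nat.card U ∣ Nat.card L := by
  induction U using WellFoundedGT.induction with
  | ind U ih =>
    intro hU a b hab ha hb
    by_cases h0 : U = ⊥
    · rw [h0, card_bot]; exact one_dvd _
    obtain ⟨k, hk | hk⟩ := hN U hU h0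
    · rcases step (L := L) hU ha hk ih with e1 | e1
      · rcases step (L := L) hU hb hk ih with e2 | e2
        · exact absurd (e1.trans e2.symm) hab
        · exact e2
      · exact e1
    · rw [← card_cj k L]
      exact card_dvd_of_le (le_normalizer.trans hk)

/-- The covering hypothesis on normalizers of nontrivial `p`-subgroups. -/
def Cov (M L : Subgroup G) : Prop :=
  ∀ q : ℕ, q.Prime → ∀ U : Subgroup G, IsPGroup q U → U ≠ ⊥ →
    ∃ k, normalizer (U : Set G) ≤ cj k M ∨ normalizer (U : Set G) ≤ cj k L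

theorem Cov.symm {M L : Subgroup G} (h : Cov M L) : Cov L M := fun q hq U hU h0 =>
  let ⟨k, hk⟩ := h q hq U hU h0
  ⟨k, hk.symm⟩

theorem Cov.card_inf_dvd {M L : Subgroup G} (h : Cov M L) {g : G} (hg : cj g M ≠ M) :
    Nat.card ↥(cj g M ⊓ M) ∣ Nat.card L := by
  refine (Nat.dvd_iff_prime_pow_dvd_dvd _ _).2 fun q k hq hk => ?_
  have : Fact q.Prime := ⟨hq⟩
  obtain ⟨U, hU⟩ := exists_sylowIn q (cj g M ⊓ M)
  have h1 := key (h q hq) U hU.isPGroup g 1 (by rwa [cj_one]) (hU.le.trans inf_le_left)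
    (by rw [cj_one]; exact hU.le.trans inf_le_right)
  refine dvd_trans ?_ h1
  rw [hU.card_eq]
  exact pow_dvd_pow _ ((hq.pow_dvd_iff_le_factorization Nat.card_pos.ne').1 hk)

theorem Cov.coprime {M L : Subgroup G} (h : Cov M L) : M.index.Coprime L.index := by
  refine Nat.coprime_of_dvd fun q hq h1 h2 => ?_
  have : Fact q.Prime := ⟨hq⟩
  obtain ⟨Q, hQ⟩ := exists_sylowIn q (⊤ : Subgroup G)
  have hd : q ∣ Nat.card (⊤ : Subgroup G) := by
    rw [card_top]; exact h1.trans M.index_dvd_card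
  have hn := hQ.not_dvd_relIndex
  rw [relIndex_top_right] at hn
  obtain ⟨k, hk | hk⟩ := h q hq Q hQ.isPGroup (hQ.ne_bot hd)
  · exact hn (h1.trans (index_cj k M ▸ index_dvd_of_le (le_normalizer.trans hk)))
  · exact hn (h2.trans (index_cj k L ▸ index_dvd_of_le (le_normalizer.trans hk)))

theorem Cov.index_le {M L : Subgroup G} (h : Cov M L) {g : G} (hg : cj g M ≠ M) :
    L.index ≤ M.index := by
  obtain ⟨e, he⟩ := h.card_inf_dvd hg
  have h1 := H1.card_inf_mul_relIndex (cj g M) M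
  have h2 := M.card_mul_index
  have h3 := L.card_mul_index
  have hpos : 0 < Nat.card ↥(cj g M ⊓ M) := Nat.card_pos
  have h4 : (cj g M).relIndex M * M.index = e * L.index := by
    apply Nat.eq_of_mul_eq_mul_left hpos
    rw [← mul_assoc, h1, h2, ← mul_assoc, ← he, h3]
  have h5 : L.index ∣ (cj g M).relIndex M :=
    h.coprime.symm.dvd_of_dvd_mul_right (h4 ▸ Dvd.intro_left _ rfl)
  have h6 : (cj g M).relIndex M ≠ 0 := (Subgroup.index_ne_zero_of_finite)
  refine (Nat.le_of_dvd (Nat.pos_of_ne_zero h6) h5).trans ?_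
  rw [← index_cj g M, ← relIndex_top_right]
  exact relIndex_le_of_le_right le_top (by rw [relIndex_top_right]; exact index_ne_zero_of_finite)

theorem Cov.false_of_not_normal {M L : Subgroup G} (h : Cov M L) (hM : ¬ M.Normal)
    (hL : ¬ L.Normal) : False := by
  have h1 : ∀ {K : Subgroup G}, ¬ K.Normal → ∃ g, cj g K ≠ K := fun hK => by
    by_contra hc
    push Not at hc
    exact hK (normal_of_forall_cj_le fun g => (hc g).le)
  obtain ⟨a, ha⟩ := h1 hM
  obtain ⟨b, hb⟩ := h1 hL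
  have e : M.index = L.index := le_antisymm (h.symm.index_le hb) (h.index_le ha)
  have hc := h.coprime
  rw [← e, Nat.coprime_self, index_eq_one] at hc
  exact hM (hc ▸ inferInstance)

/-- No nontrivial normal subgroup lies in `L`. -/
theorem Cov.eq_bot {M L N : Subgroup G} (h : Cov M L) (hM : M ≠ ⊤) (hL : L ≠ ⊤) [N.Normal]
    (hNL : N ≤ L) : N = ⊥ := by
  have hF : ∀ {q : ℕ} [Fact q.Prime] {P K : Subgroup G} {k : G}, SylowIn q P N → N ≤ K →
      normalizer (P : Set G) ≤ cj k K → K = ⊤ := by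
    intro q _ P K k hP hNK hk
    have h1 := hP.frattini_sup (H := ⊤) le_top (by rw [normalizer_eq_top])
    have h2 : N ≤ cj k K := by
      rw [← cj_eq_of_normal k N]; exact cj_mono k hNK
    have h3 : cj k K = ⊤ := eq_top_iff.2 (h1 ▸ sup_le h2 (inf_le_right.trans hk))
    rw [← cj_inv_cj k K, h3, cj_top]
  have hNM : N ≤ M := by
    rw [← relIndex_eq_one]
    by_contra hne
    obtain ⟨q, hq, hd⟩ := Nat.exists_prime_and_dvd hne
    have : Fact q.Prime := ⟨hq⟩
    obtain ⟨P, hP⟩ := exists_sylowIn q N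
    obtain ⟨k, hk | hk⟩ := h q hq P hP.isPGroup (hP.ne_bot (hd.trans (relIndex_dvd_card M N)))
    · have h1 : SylowIn q (cj k⁻¹ P) N := hP.cj_of_mem_normalizer (by rw [normalizer_eq_top]; trivial)
      exact h1.not_dvd_relIndex (hd.trans (relIndex_dvd_of_le_left N
        (le_cj_iff.1 (le_normalizer.trans hk))))
    · exact hL (hF hP hNL hk)
  by_contra hne
  obtain ⟨q, hq, hd⟩ := Nat.exists_prime_and_dvd (fun h1 => hne (card_eq_one.1 h1))
  have : Fact q.Prime := ⟨hq⟩
  obtain ⟨P, hP⟩ := exists_sylowIn q N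
  obtain ⟨k, hk | hk⟩ := h q hq P hP.isPGroup (hP.ne_bot hd)
  · exact hM (hF hP hNM hk)
  · exact hL (hF hP hNL hk)

theorem Cov.not_normal {M L : Subgroup G} (h : Cov M L) (hM : M ≠ ⊤) (hL : L ≠ ⊤) :
    ¬ L.Normal := by
  intro hn
  have h1 : L = ⊥ := h.eq_bot hM hL le_rfl
  have hc := h.coprime
  rw [h1, index_bot] at hc
  exact hM (index_eq_one.1 (hc.eq_one_of_dvd M.index_dvd_card))

theorem Cov.false {M L : Subgroup G} (h : Cov M L) (hM : M ≠ ⊤) (hL : L ≠ ⊤) : False :=
  h.false_of_not_normal (h.symm.not_normal hL hM) (h.not_normal hM hL)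

omit [Finite G] in
theorem map_cj {G' : Type*} [Group G'] (f : G →* G') (g : G) (H : Subgroup G) :
    (cj g H).map f = cj (f g) (H.map f) := by
  unfold cj
  rw [map_map, map_map]
  congr 1
  ext x
  simp

theorem solvable_aux (n : ℕ) : ∀ (G : Type u) [Group G] [Finite G], Nat.card G = n →
    ∀ M L : Subgroup G, M ≠ ⊤ → L ≠ ⊤ →
      (∀ H : Subgroup G, H ≠ ⊤ → ∃ k, H ≤ cj k M ∨ H ≤ cj k L) → Group.IsSolvable G := by
  induction n using Nat.strong_induction_on with
  | _ n ih =>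
    intro G _ _ hn M L hM hL h
    by_contra hs
    refine Cov.false (M := M) (L := L) (fun q hq U hU h0 => h _ fun ht => hs ?_) hM hL
    have : Fact q.Prime := ⟨hq⟩
    have : U.Normal := normalizer_eq_top_iff.1 ht
    have hUs : Group.IsSolvable U := by
      have := hU.isNilpotent
      infer_instance
    refine H1.isSolvable_of_normal_of_quotient U hUs ?_
    by_cases hU' : U = ⊤
    · have : Subsingleton (G ⧸ U) := hU' ▸ QuotientGroup.subsingleton_quotient_top
      infer_instance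
    have hlt : Nat.card (G ⧸ U) < n := hn ▸ H1.card_quotient_lt h0
    have hcov : ∀ (H : Subgroup (G ⧸ U)), H ≠ ⊤ → ∃ k : G,
        (U ≤ M ∧ H ≤ cj (QuotientGroup.mk' U k) (M.map (QuotientGroup.mk' U))) ∨
        (U ≤ L ∧ H ≤ cj (QuotientGroup.mk' U k) (L.map (QuotientGroup.mk' U))) := by
      intro H hH
      have hsurj := QuotientGroup.mk'_surjective U
      have h1 : H.comap (QuotientGroup.mk' U) ≠ ⊤ := fun e => hH (by
        rw [← map_comap_eq_self_of_surjective hsurj H, e, map_top_of_surjective _ hsurj])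
      have h2 : U ≤ H.comap (QuotientGroup.mk' U) := QuotientGroup.le_comap_mk' U H
      have h3 : ∀ {K : Subgroup G} {k : G}, H.comap (QuotientGroup.mk' U) ≤ cj k K →
          U ≤ K ∧ H ≤ cj (QuotientGroup.mk' U k) (K.map (QuotientGroup.mk' U)) := by
        intro K k hk
        refine ⟨?_, ?_⟩
        · have := le_cj_iff.1 (h2.trans hk)
          rwa [cj_eq_of_normal] at this
        · rw [← map_cj, ← map_comap_eq_self_of_surjective hsurj H]
          exact map_mono hk
      obtain ⟨k, hk | hk⟩ := h _ h1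
      · exact ⟨k, Or.inl (h3 hk)⟩
      · exact ⟨k, Or.inr (h3 hk)⟩
    have hne : ∀ {K : Subgroup G}, K ≠ ⊤ → U ≤ K → K.map (QuotientGroup.mk' U) ≠ ⊤ := by
      intro K hK hUK e
      apply hK
      have := congrArg (comap (QuotientGroup.mk' U)) e
      rwa [comap_map_eq, QuotientGroup.ker_mk', sup_eq_left.2 hUK, comap_top] at this
    by_cases h1 : U ≤ M
    · by_cases h2 : U ≤ L
      · refine ih _ hlt (G ⧸ U) rfl _ _ (hne hM h1) (hne hL h2) fun H hH => ?_
        obtain ⟨k, hk | hk⟩ := hcov H hH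
        · exact ⟨_, Or.inl hk.2⟩
        · exact ⟨_, Or.inr hk.2⟩
      · refine ih _ hlt (G ⧸ U) rfl _ _ (hne hM h1) (hne hM h1) fun H hH => ?_
        obtain ⟨k, hk | hk⟩ := hcov H hH
        · exact ⟨_, Or.inl hk.2⟩
        · exact absurd hk.1 h2
    · have h2 : U ≤ L := by
        obtain ⟨k, hk | hk⟩ := h U hU'
        · have := le_cj_iff.1 hk
          rw [cj_eq_of_normal] at this
          exact absurd this h1
        · have := le_cj_iff.1 hk
          rwa [cj_eq_of_normal] at this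
      refine ih _ hlt (G ⧸ U) rfl _ _ (hne hL h2) (hne hL h2) fun H hH => ?_
      obtain ⟨k, hk | hk⟩ := hcov H hH
      · exact absurd hk.1 h1
      · exact ⟨_, Or.inl hk.2⟩

theorem solvable {M L : Subgroup G} (hM : M ≠ ⊤) (hL : L ≠ ⊤)
    (h : ∀ H : Subgroup G, H ≠ ⊤ → ∃ k, H ≤ cj k M ∨ H ≤ cj k L) : Group.IsSolvable G :=
  solvable_aux _ G rfl M L hM hL h

/-- At most two primes. -/
theorem card_primeFactors_le [Group.IsSolvable G] {M L : Subgroup G} (hM : M ≠ ⊤) (hL : L ≠ ⊤)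
    (h : ∀ H : Subgroup G, H ≠ ⊤ → ∃ k, H ≤ cj k M ∨ H ≤ cj k L) :
    (Nat.card G).primeFactors.card ≤ 2 := by
  have hsub : (Nat.card G).primeFactors ⊆ {M.index.minFac, L.index.minFac} := by
    intro p hp
    have hp' := Nat.prime_of_mem_primeFactors hp
    have hd := Nat.dvd_of_mem_primeFactors hp
    obtain ⟨H, hH⟩ := H3.exists_isPiHall (G := G) ({p}ᶜ : Set ℕ)
    have hne : H ≠ ⊤ := fun e => hH.1 p hp' (by rw [e, card_top]; exact hd) rfl
    have h1 : ∀ {K : Subgroup G} {k : G}, K ≠ ⊤ → H ≤ cj k K → p = K.index.minFac := by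
      intro K k hK hk
      have h2 : K.index ≠ 1 := fun e => hK (index_eq_one.1 e)
      by_contra hc
      exact hH.2 _ (Nat.minFac_prime h2) (fun e => hc (Set.mem_singleton_iff.1 e).symm)
        ((Nat.minFac_dvd _).trans (index_cj k K ▸ index_dvd_of_le hk))
    obtain ⟨k, hk | hk⟩ := h H hne
    · rw [h1 hM hk]; simp
    · rw [h1 hL hk]; simp
  exact (Finset.card_le_card hsub).trans Finset.card_le_two

/-- A `p`-group does not have exactly two maximal subgroups. -/
theorem false_of_isPGroup {p : ℕ} [hp : Fact p.Prime] (hG : IsPGroup p G) {M L : Subgroup G}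
    (hM : IsCoatom M) (hL : IsCoatom L) (hne : L ≠ M)
    (h : ∀ H : Subgroup G, H ≠ ⊤ → ∃ k, H ≤ cj k M ∨ H ≤ cj k L) : False := by
  have := hG.isNilpotent
  have hc : NormalizerCondition G := Group.normalizerCondition_of_isNilpotent
  have : M.Normal := NormalizerCondition.normal_of_coatom M hc hM
  have : L.Normal := NormalizerCondition.normal_of_coatom L hc hL
  obtain ⟨x, hxM, hxL⟩ := SetLike.not_le_iff_exists.1
    (fun hle : M ≤ L => hne ((hM.le_iff_eq hL.1).1 hle))
  obtain ⟨y, hyL, hyM⟩ := SetLike.not_le_iff_exists.1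
    (fun hle : L ≤ M => hne ((hL.le_iff_eq hM.1).1 hle).symm)
  have hz : zpowers (x * y) = ⊤ := by
    by_contra hz
    obtain ⟨k, hk | hk⟩ := h _ hz
    · rw [cj_eq_of_normal] at hk
      exact hyM ((mul_mem_cancel_left hxM).1 (hk (mem_zpowers _)))
    · rw [cj_eq_of_normal] at hk
      exact hxL ((mul_mem_cancel_right hyL).1 (hk (mem_zpowers _)))
  obtain ⟨n, hn⟩ := (IsPGroup.iff_orderOf.1 hG) (x * y)
  have hdv : ∀ {K : Subgroup G} {a : ℕ}, K ≠ ⊤ → (x * y) ^ a ∈ K → p ∣ a := by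
    intro K a hK ha
    by_contra hd
    have hco : a.Coprime (orderOf (x * y)) := by
      rw [hn]; exact ((Nat.Prime.coprime_iff_not_dvd hp.out).2 hd).symm.pow_right n
    obtain ⟨m, hm⟩ := exists_pow_eq_self_of_coprime hco
    apply hK
    rw [eq_top_iff, ← hz, zpowers_le, ← hm]
    exact pow_mem ha m
  obtain ⟨a, ha⟩ : x ∈ Submonoid.powers (x * y) := mem_powers_iff_mem_zpowers.2 (hz ▸ mem_top x)
  obtain ⟨b, hb⟩ : y ∈ Submonoid.powers (x * y) := mem_powers_iff_mem_zpowers.2 (hz ▸ mem_top y)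
  simp only at ha hb
  have h1 : p ∣ a := hdv hM.1 (ha.symm ▸ hxM)
  have h2 : p ∣ b := hdv hL.1 (hb.symm ▸ hyL)
  have h3 : (x * y) ^ (a + b) = (x * y) ^ 1 := by rw [pow_add, ha, hb, pow_one]
  rw [pow_eq_pow_iff_modEq, hn] at h3
  rcases Nat.eq_zero_or_pos n with h0 | h0
  · rw [h0, pow_zero, orderOf_eq_one_iff] at hn
    rw [hn, zpowers_one_eq_bot] at hz
    exact hM.1 (eq_top_iff.2 (hz ▸ bot_le))
  · have h4 := h3.of_dvd (dvd_pow_self p h0.ne')
    have h5 : p ∣ 1 := (Nat.ModEq.dvd_iff h4 dvd_rfl).1 (dvd_add h1 h2)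
    exact hp.out.one_lt.ne' (Nat.dvd_one.1 h5)

theorem two_primes {M L : Subgroup G} (hM : IsCoatom M) (hL : IsCoatom L) (hne : L ≠ M)
    (h : ∀ H : Subgroup G, H ≠ ⊤ → ∃ k, H ≤ cj k M ∨ H ≤ cj k L) :
    Group.IsSolvable G ∧ (Nat.card G).primeFactors.card = 2 := by
  have hs := solvable hM.1 hL.1 h
  refine ⟨hs, le_antisymm (card_primeFactors_le hM.1 hL.1 h) ?_⟩
  by_contra hlt
  have h1 : (Nat.card G).primeFactors.card ≤ 1 := by omega
  have h2 : Nat.card G ≠ 1 := fun e => hM.1 (index_eq_one.1 (Nat.dvd_one.1 (e ▸ M.index_dvd_card)))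
  have hp := Nat.minFac_prime h2
  have : Fact (Nat.card G).minFac.Prime := ⟨hp⟩
  have h3 : Nat.card G = (Nat.card G).minFac ^ _ :=
    Nat.eq_prime_pow_of_unique_prime_dvd Nat.card_pos.ne' fun {q} hq hd =>
      Finset.card_le_one.1 h1 _ (Nat.mem_primeFactors.2 ⟨hq, hd, Nat.card_pos.ne'⟩) _
        (Nat.mem_primeFactors.2 ⟨hp, Nat.minFac_dvd _, Nat.card_pos.ne'⟩)
  exact false_of_isPGroup (IsPGroup.of_card h3) hM hL hne h

theorem cov_eq_defs : True := trivial

end H93TM
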